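import Mathlib

set_option autoImplicit false

namespace Cfsg.Agent.Lib.Helper60

/-- The product of two `p`-elements is a `p`-element (equivalently, for a finite group: the
Sylow `p`-subgroup is normal). -/
def PClosed (p : ℕ) (Y : Type*) [Group Y] : Prop :=
  ∀ x y : Y, (∃ k : ℕ, x ^ (p ^ k) = 1) → (∃ k : ℕ, y ^ (p ^ k) = 1) →
    ∃ k : ℕ, (x * y) ^ (p ^ k) = 1

theorem PClosed.subgroup {p : ℕ} {Y : Type*} [Group Y] (h : PClosed p Y) (H : Subgroup Y) :
    PClosed p H := by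
  rintro x y ⟨k, hk⟩ ⟨l, hl⟩
  obtain ⟨m, hm⟩ := h x y ⟨k, by simpa using congrArg Subtype.val hk⟩
    ⟨l, by simpa using congrArg Subtype.val hl⟩
  exact ⟨m, Subtype.ext (by simpa using hm)⟩

theorem PClosed.quotient {p : ℕ} (hp : p.Prime) {Y : Type*} [Group Y] [Finite Y]
    (h : PClosed p Y) (N : Subgroup Y) [N.Normal] : PClosed p (Y ⧸ N) := by
  have lift : ∀ z : Y ⧸ N, (∃ k : ℕ, z ^ (p ^ k) = 1) →
      ∃ y : Y, (y : Y ⧸ N) = z ∧ ∃ e : ℕ, y ^ (p ^ e) = 1 := by
    rintro z ⟨k, hk⟩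
    obtain ⟨y, rfl⟩ := QuotientGroup.mk_surjective z
    obtain ⟨e, m', hm', hn⟩ :=
      Nat.exists_eq_pow_mul_and_not_dvd (orderOf_pos y).ne' p hp.ne_one
    by_cases hk0 : k = 0
    · subst hk0
      refine ⟨1, ?_, 0, by simp⟩
      rw [pow_zero, pow_one] at hk
      rw [hk]; rfl
    · have hcop : Nat.Coprime m' (p ^ k) :=
        Nat.Coprime.pow_right k ((Nat.Prime.coprime_iff_not_dvd hp).mpr hm').symm
      obtain ⟨c, -, hc⟩ :=
        Nat.exists_mul_mod_eq_one_of_coprime hcop (Nat.one_lt_pow hk0 hp.one_lt)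
      refine ⟨y ^ (m' * c), ?_, e, ?_⟩
      · rw [QuotientGroup.mk_pow, ← Nat.mod_add_div (m' * c) (p ^ k), hc, pow_add, pow_mul,
          hk, one_pow, mul_one, pow_one]
      · rw [← pow_mul, mul_comm (m' * c), ← mul_assoc, ← hn, pow_mul, pow_orderOf_eq_one,
          one_pow]
  intro z w hz hw
  obtain ⟨y, rfl, hy⟩ := lift z hz
  obtain ⟨y', rfl, hy'⟩ := lift w hw
  obtain ⟨m, hm⟩ := h y y' hy hy'
  exact ⟨m, by rw [← QuotientGroup.mk_mul, ← QuotientGroup.mk_pow, hm]; rfl⟩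

theorem PClosed.of_mulEquiv {p : ℕ} {Y Z : Type*} [Group Y] [Group Z] (e : Y ≃* Z)
    (h : PClosed p Y) : PClosed p Z := by
  rintro x y ⟨k, hk⟩ ⟨l, hl⟩
  obtain ⟨m, hm⟩ := h (e.symm x) (e.symm y) ⟨k, by rw [← map_pow, hk, map_one]⟩
    ⟨l, by rw [← map_pow, hl, map_one]⟩
  refine ⟨m, ?_⟩
  have h2 := congrArg e hm
  simpa using h2

/-- If the `p`-elements and the `q`-elements are both closed under products, elements of orders
`p` and `q` commute, so their product has order `p * q`. -/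
theorem orderOf_mul_of_PClosed {p q : ℕ} (hp : p.Prime) (hq : q.Prime) (hpq : p ≠ q)
    {Y : Type*} [Group Y] (h1 : PClosed p Y) (h2 : PClosed q Y)
    (x y : Y) (hx : orderOf x = p) (hy : orderOf y = q) : orderOf (x * y) = p * q := by
  have hxp : x ^ (p ^ 1) = 1 := by rw [pow_one, ← hx]; exact pow_orderOf_eq_one x
  have hyq : y ^ (q ^ 1) = 1 := by rw [pow_one, ← hy]; exact pow_orderOf_eq_one y
  have h3 : (y * x⁻¹ * y⁻¹) ^ (p ^ 1) = 1 := by
    rw [conj_pow, inv_pow, hxp]; group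
  obtain ⟨k, hk⟩ := h1 x (y * x⁻¹ * y⁻¹) ⟨1, hxp⟩ ⟨1, h3⟩
  have h4 : (x * y * x⁻¹) ^ (q ^ 1) = 1 := by
    rw [conj_pow, hyq]; group
  have h5 : (y⁻¹) ^ (q ^ 1) = 1 := by rw [inv_pow, hyq, inv_one]
  obtain ⟨l, hl⟩ := h2 (x * y * x⁻¹) y⁻¹ ⟨1, h4⟩ ⟨1, h5⟩
  have e : x * (y * x⁻¹ * y⁻¹) = x * y * x⁻¹ * y⁻¹ := by group
  rw [e] at hk
  have hc : x * y * x⁻¹ * y⁻¹ = 1 := by
    have h6 := pow_gcd_eq_one.mpr ⟨hk, hl⟩
    have h7 : Nat.gcd (p ^ k) (q ^ l) = 1 :=
      Nat.Coprime.pow k l ((Nat.coprime_primes hp hq).mpr hpq)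
    rwa [h7, pow_one] at h6
  have hcomm : Commute x y := by
    have h8 : x * y = y * x := by
      calc x * y = (x * y * x⁻¹ * y⁻¹) * (y * x) := by group
        _ = y * x := by rw [hc, one_mul]
    exact h8
  rw [hcomm.orderOf_mul_eq_mul_orderOf_of_coprime
    (by rw [hx, hy]; exact (Nat.coprime_primes hp hq).mpr hpq), hx, hy]

/-- Existence of a critical section: a finite group with set of element orders `Ω` has a
section with the same set of element orders none of whose proper sections has it; properties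
inherited by subgroups and quotients pass to it. -/
theorem exists_critical (Ω : Set ℕ) (P : ∀ (Y : Type) [Group Y], Prop)
    (hsub : ∀ (Y : Type) [Group Y] (H : Subgroup Y), P Y → P H)
    (hquot : ∀ (Y : Type) [Group Y] [Finite Y] (N : Subgroup Y) [N.Normal], P Y → P (Y ⧸ N)) :
    ∀ (n : ℕ) (X : Type) [Group X] [Finite X], Nat.card X ≤ n → P X →
      Set.range (orderOf : X → ℕ) = Ω →
      ∃ (Y : Type) (_ : Group Y) (_ : Finite Y), P Y ∧ Set.range (orderOf : Y → ℕ) = Ω ∧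
        ∀ (H : Subgroup Y) (N : Subgroup H) [N.Normal], (H ≠ ⊤ ∨ N ≠ ⊥) →
          Set.range (orderOf : (H ⧸ N) → ℕ) ≠ Ω := by
  intro n
  induction n with
  | zero =>
    intro X _ _ hcard
    have := Nat.card_pos (α := X)
    omega
  | succ n ih =>
    intro X _ _ hcard hP hspec
    by_cases hcrit : ∀ (H : Subgroup X) (N : Subgroup H) [N.Normal], (H ≠ ⊤ ∨ N ≠ ⊥) →
        Set.range (orderOf : (H ⧸ N) → ℕ) ≠ Ω
    · exact ⟨X, inferInstance, inferInstance, hP, hspec, hcrit⟩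
    · push Not at hcrit
      obtain ⟨H, N, hN, hne, hsp⟩ := hcrit
      have h3 : Nat.card H ≤ Nat.card X := Subgroup.card_le_card_group H
      have h2 : Nat.card (H ⧸ N) ≤ Nat.card H :=
        Nat.card_le_card_of_surjective _ QuotientGroup.mk_surjective
      have hlt : Nat.card (H ⧸ N) ≤ n := by
        rcases hne with hH | hN1
        · have h1 : Nat.card H < Nat.card X := by
            by_contra hcon
            exact hH (Subgroup.eq_top_of_card_eq H (by omega))
          omega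
        · have h1 : Nat.card H = Nat.card (H ⧸ N) * Nat.card N :=
            Subgroup.card_eq_card_quotient_mul_card_subgroup N
          have h4 : 1 < Nat.card N := N.one_lt_card_iff_ne_bot.mpr hN1
          have h5 := Nat.card_pos (α := H ⧸ N)
          nlinarith
      exact ih (H ⧸ N) hlt (hquot H N (hsub X H hP)) hsp

end Cfsg.Agent.Lib.Helper60
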