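import Mathlib

/-!
A counting criterion against doubly transitive actions, for a group of order `17971200`
with a subgroup of order 27 and one of order 25 in each of which all non-identity elements
are conjugate in the group, and an element of order three normalising the latter.
-/

set_option autoImplicit false

namespace Cfsg.Agent.Lib.Helper60.TwoTrans

open MulAction

section

variable {G : Type*} [Group G] (Ω : Type*) [MulAction G Ω]

/-- the number of fixed points of an element -/
noncomputable def fx (g : G) : ℕ := Nat.card (fixedBy Ω g)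

variable {Ω}

theorem fx_conj (c g : G) : fx Ω (c * g * c⁻¹) = fx Ω g := by
  unfold fx
  apply Nat.card_congr
  refine ⟨fun x => ⟨c⁻¹ • x.1, ?_⟩, fun x => ⟨c • x.1, ?_⟩, ?_, ?_⟩
  · have h := x.2
    rw [mem_fixedBy] at h ⊢
    calc g • c⁻¹ • x.1 = c⁻¹ • ((c * g * c⁻¹) • x.1) := by simp [mul_smul]
      _ = c⁻¹ • x.1 := by rw [h]
  · have h := x.2
    rw [mem_fixedBy] at h ⊢
    calc (c * g * c⁻¹) • c • x.1 = c • g • x.1 := by simp [mul_smul]
      _ = c • x.1 := by rw [h]
  · intro x; apply Subtype.ext; simp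
  · intro x; apply Subtype.ext; simp

theorem fx_isConj {a b : G} (h : IsConj a b) : fx Ω a = fx Ω b := by
  obtain ⟨c, hc⟩ := isConj_iff.mp h
  rw [← hc, fx_conj]

theorem fx_one [Finite Ω] : fx Ω (1 : G) = Nat.card Ω := by
  unfold fx
  rw [fixedBy_one_eq_univ]
  exact Nat.card_congr (Equiv.Set.univ Ω)

theorem fx_lt [Finite Ω] [FaithfulSMul G Ω] {g : G} (hg : g ≠ 1) : fx Ω g < Nat.card Ω := by
  unfold fx
  rw [Nat.card_coe_set_eq]
  refine lt_of_le_of_ne (Set.ncard_le_card _) ?_
  intro h
  have h1 : fixedBy Ω g = Set.univ := (Set.eq_univ_iff_ncard _).mpr h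
  apply hg
  apply FaithfulSMul.eq_of_smul_eq_smul (α := Ω)
  intro x
  have : x ∈ fixedBy Ω g := by rw [h1]; trivial
  rw [one_smul]
  exact this

/-- Burnside's count for a subgroup whose non-identity elements have equally many fixed points -/
theorem burnside_const [Finite G] [Finite Ω] (P : Subgroup G) (f : ℕ)
    (hf : ∀ g ∈ P, g ≠ 1 → fx Ω g = f) :
    Nat.card (orbitRel.Quotient P Ω) * Nat.card P = Nat.card Ω + (Nat.card P - 1) * f := by
  classical
  haveI : Fintype P := Fintype.ofFinite P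
  haveI : Fintype Ω := Fintype.ofFinite Ω
  haveI : Fintype (orbitRel.Quotient P Ω) := Fintype.ofFinite _
  haveI : ∀ g : P, Fintype (fixedBy Ω g) := fun g => Fintype.ofFinite _
  have h := sum_card_fixedBy_eq_card_orbits_mul_card_group P Ω
  simp only [Fintype.card_eq_nat_card] at h
  rw [← h]
  have h1 : ∀ g : P, g ∈ (Finset.univ : Finset P).erase 1 → Nat.card (fixedBy Ω g) = f := by
    intro g hg
    have hg1 : (g : G) ≠ 1 := fun e => (Finset.mem_erase.mp hg).1 (Subtype.ext e)
    exact hf g.1 g.2 hg1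
  rw [← Finset.add_sum_erase _ _ (Finset.mem_univ (1 : P)), Finset.sum_congr rfl h1,
    Finset.sum_const, smul_eq_mul, Finset.card_erase_of_mem (Finset.mem_univ _),
    Finset.card_univ, Fintype.card_eq_nat_card]
  congr 1
  exact fx_one (G := P)

/-- a group of order 25 without a common fixed point has orbits of length at least five -/
theorem orbits_le_25 [Finite G] [Finite Ω] (P : Subgroup G) (hP : Nat.card P = 25)
    (hnf : ∀ x : Ω, ∃ g ∈ P, g • x ≠ x) :
    5 * Nat.card (orbitRel.Quotient P Ω) ≤ Nat.card Ω := by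
  classical
  haveI : Fintype P := Fintype.ofFinite P
  haveI : Fintype Ω := Fintype.ofFinite Ω
  haveI : Fintype (orbitRel.Quotient P Ω) := Fintype.ofFinite _
  haveI : ∀ b : Ω, Fintype (stabilizer P b) := fun b => Fintype.ofFinite _
  have h := card_eq_sum_card_group_div_card_stabilizer P Ω
  simp only [Fintype.card_eq_nat_card] at h
  rw [h]
  have h2 : ∀ ω : orbitRel.Quotient P Ω, 5 ≤ Nat.card P / Nat.card (stabilizer P ω.out) := by
    intro ω
    have hd : Nat.card (stabilizer P ω.out) ∣ Nat.card P := Subgroup.card_subgroup_dvd_card _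
    have hne : Nat.card (stabilizer P ω.out) ≠ Nat.card P := by
      intro e
      have htop : stabilizer P ω.out = ⊤ := Subgroup.eq_top_of_card_eq _ e
      obtain ⟨g, hg, hgx⟩ := hnf ω.out
      have hmem : (⟨g, hg⟩ : P) ∈ stabilizer P ω.out := by rw [htop]; trivial
      exact hgx hmem
    rw [hP] at hd hne ⊢
    have hle : Nat.card (stabilizer P ω.out) ≤ 25 := Nat.le_of_dvd (by norm_num) hd
    generalize Nat.card (stabilizer P ω.out) = c at hd hne hle
    interval_cases c <;> simp_all
  calc 5 * Nat.card (orbitRel.Quotient P Ω)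
      = ∑ _ω : orbitRel.Quotient P Ω, 5 := by
        rw [Finset.sum_const, smul_eq_mul, Finset.card_univ, Fintype.card_eq_nat_card, mul_comm]
    _ ≤ _ := Finset.sum_le_sum (fun ω _ => h2 ω)

/-- in a doubly transitive action the number of ordered pairs of distinct points divides
the group order -/
theorem two_trans_dvd [Finite G] [Fintype Ω]
    (h2 : ∀ a b c d : Ω, a ≠ b → c ≠ d → ∃ g : G, g • a = c ∧ g • b = d)
    (hn : 2 ≤ Fintype.card Ω) : Fintype.card Ω * (Fintype.card Ω - 1) ∣ Nat.card G := by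
  classical
  obtain ⟨a, b, hab⟩ := Fintype.one_lt_card_iff.mp (show 1 < Fintype.card Ω by omega)
  have h := Nat.card_congr (orbitProdStabilizerEquivGroup G ((a, b) : Ω × Ω))
  rw [Nat.card_prod] at h
  have ho : orbit G ((a, b) : Ω × Ω) = (((Finset.univ : Finset Ω).offDiag : Finset (Ω × Ω)) :
      Set (Ω × Ω)) := by
    ext p
    simp only [Finset.coe_offDiag, Finset.coe_univ, Set.mem_offDiag, Set.mem_univ, true_and]
    constructor
    · rintro ⟨g, rfl⟩
      intro e
      exact hab (smul_left_cancel g e)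
    · intro hp
      obtain ⟨g, h1, h2'⟩ := h2 a b p.1 p.2 hab hp
      exact ⟨g, Prod.ext h1 h2'⟩
  have hc : Nat.card (orbit G ((a, b) : Ω × Ω)) = Fintype.card Ω * (Fintype.card Ω - 1) := by
    rw [Nat.card_coe_set_eq, ho, Set.ncard_coe_finset, Finset.offDiag_card, Finset.card_univ,
      Nat.mul_sub_one]
  rw [hc] at h
  exact ⟨_, h.symm⟩

/-- in a transitive action the degree times the order of a point stabiliser is the group order -/
theorem trans_card [Finite G] [Fintype Ω] (h1 : ∀ a b : Ω, ∃ g : G, g • a = b) (x : Ω) :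
    Fintype.card Ω * Nat.card (stabilizer G x) = Nat.card G := by
  have h := Nat.card_congr (orbitProdStabilizerEquivGroup G x)
  rw [Nat.card_prod] at h
  have ho : orbit G x = Set.univ := by
    ext p
    simp only [Set.mem_univ, iff_true]
    obtain ⟨g, hg⟩ := h1 x p
    exact ⟨g, hg⟩
  have hc : Nat.card (orbit G x) = Fintype.card Ω := by
    rw [ho, ← Nat.card_eq_fintype_card]
    exact Nat.card_congr (Equiv.Set.univ Ω)
  rw [hc] at h
  exact h

/-- check `f 0, ..., f (n-1)` -/
def allB (f : ℕ → Bool) : ℕ → Bool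
  | 0 => true
  | n + 1 => f n && allB f n

theorem allB_spec (f : ℕ → Bool) (n : ℕ) (h : allB f n = true) : ∀ j < n, f j = true := by
  induction n with
  | zero => intro j hj; omega
  | succ n ih =>
    simp only [allB, Bool.and_eq_true] at h
    intro j hj
    rcases Nat.lt_succ_iff_lt_or_eq.mp hj with h1 | h1
    · exact ih h.2 j h1
    · rw [h1]; exact h.1

def okN (n : ℕ) : Bool :=
  Nat.blt n 27 || !(Nat.beq (Nat.mod 17971200 (Nat.mul n (Nat.sub n 1))) 0) || Nat.beq n 27 ||
    Nat.beq n 40 || Nat.beq n 65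

theorem okN_all : allB okN 4241 = true := by decide +kernel

theorem small_cases_aux : ∀ n < 4241, 27 ≤ n → n * (n - 1) ∣ 17971200 →
    n = 27 ∨ n = 40 ∨ n = 65 := by
  intro n hn h27 hd
  have h := allB_spec okN 4241 okN_all n hn
  simp only [okN, Bool.or_eq_true, Bool.not_eq_true', Nat.blt_eq] at h
  rcases h with (((h | h) | h) | h) | h
  · omega
  · exact absurd (Nat.mod_eq_zero_of_dvd hd) (Nat.ne_of_beq_eq_false h)
  · exact Or.inl (Nat.eq_of_beq_eq_true h)
  · exact Or.inr (Or.inl (Nat.eq_of_beq_eq_true h))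
  · exact Or.inr (Or.inr (Nat.eq_of_beq_eq_true h))

theorem small_cases (n : ℕ) (h27 : 27 ≤ n) (hd : n * (n - 1) ∣ 17971200) :
    n = 27 ∨ n = 40 ∨ n = 65 := by
  refine small_cases_aux n ?_ h27 hd
  by_contra hlt
  have hle : n * (n - 1) ≤ 17971200 := Nat.le_of_dvd (by norm_num) hd
  have h1 : 4241 ≤ n := by omega
  have h2 : 4240 ≤ n - 1 := by omega
  have h3 : 4241 * 4240 ≤ n * (n - 1) := Nat.mul_le_mul h1 h2
  omega

theorem arith27 (o f n : ℕ) (h : o * 27 = n + 26 * f) (hf : f < n) : 27 ≤ n := by omega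

theorem no_fixed_of_card [Finite G] [Fintype Ω] (h1 : ∀ a b : Ω, ∃ g : G, g • a = b)
    (P : Subgroup G) (hP : Nat.card P = 25) (n : ℕ) (hn : Fintype.card Ω = n)
    (hN : Nat.card G = 17971200) (h25 : ¬ 25 ∣ 17971200 / n) (hpos : 0 < n) :
    ∀ x : Ω, ∃ g ∈ P, g • x ≠ x := by
  intro x
  by_contra hcon
  push Not at hcon
  have hle : P ≤ stabilizer G x := fun g hg => hcon g hg
  have hd : 25 ∣ Nat.card (stabilizer G x) := hP ▸ Subgroup.card_dvd_of_le hle
  have hc := trans_card h1 x
  rw [hn, hN] at hc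
  apply h25
  rw [← hc, Nat.mul_div_cancel_left _ hpos]
  exact hd

/-- the criterion -/
theorem no_two_trans {G : Type*} [Group G] [Finite G] {Ω : Type*} [Fintype Ω] [MulAction G Ω]
    [FaithfulSMul G Ω] (hN : Nat.card G = 17971200) (hΩ : 3 ≤ Fintype.card Ω)
    (P3 P5 : Subgroup G) (h27 : Nat.card P3 = 27) (h25 : Nat.card P5 = 25)
    (y3 y5 y : G) (hy31 : y3 ≠ 1) (hy5 : y5 ∈ P5) (hy51 : y5 ≠ 1)
    (hc3 : ∀ a ∈ P3, a ≠ 1 → IsConj y3 a) (hc5 : ∀ a ∈ P5, a ≠ 1 → IsConj y5 a)
    (hy : IsConj y3 y) (hyo : y ^ 3 = 1) (hyN : ∀ a ∈ P5, y⁻¹ * a * y ∈ P5) :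
    ¬ MulAction.IsMultiplyPretransitive G Ω 2 := by
  intro h2t
  rw [is_two_pretransitive_iff] at h2t
  have h2 : ∀ a b c d : Ω, a ≠ b → c ≠ d → ∃ g : G, g • a = c ∧ g • b = d :=
    fun a b c d hab hcd => h2t hab hcd
  have h1 : ∀ a b : Ω, ∃ g : G, g • a = b := by
    intro a b
    by_cases hab : a = b
    · exact ⟨1, by rw [one_smul, hab]⟩
    · obtain ⟨c, hc1, hc2⟩ : ∃ c : Ω, c ≠ a ∧ c ≠ b := by
        by_contra hcon
        push Not at hcon
        have : Fintype.card Ω ≤ 2 := by
          classical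
          have hsub : (Finset.univ : Finset Ω) ⊆ {a, b} := by
            intro c _
            by_cases hca : c = a
            · simp [hca]
            · simp [hcon c hca]
          calc Fintype.card Ω = (Finset.univ : Finset Ω).card := Finset.card_univ.symm
            _ ≤ ({a, b} : Finset Ω).card := Finset.card_le_card hsub
            _ ≤ 2 := Finset.card_le_two
        omega
      obtain ⟨g, hg, _⟩ := h2 a c b c (Ne.symm hc1) (Ne.symm hc2)
      exact ⟨g, hg⟩
  obtain ⟨n, hn⟩ : ∃ n, Fintype.card Ω = n := ⟨_, rfl⟩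
  have hnc : Nat.card Ω = n := by rw [Nat.card_eq_fintype_card, hn]
  have hB3 := burnside_const (Ω := Ω) P3 (fx Ω y3)
    (fun g hg hg1 => (fx_isConj (hc3 g hg hg1)).symm)
  have hB5 := burnside_const (Ω := Ω) P5 (fx Ω y5)
    (fun g hg hg1 => (fx_isConj (hc5 g hg hg1)).symm)
  rw [h27, hnc] at hB3
  rw [h25, hnc] at hB5
  have hf3 : fx Ω y3 < n := hnc ▸ fx_lt hy31
  have hf5 : fx Ω y5 < n := hnc ▸ fx_lt hy51
  have hdiv : n * (n - 1) ∣ 17971200 := by
    have := two_trans_dvd (G := G) h2 (by omega)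
    rwa [hn, hN] at this
  have hn27 : 27 ≤ n := arith27 _ _ _ (by simpa using hB3) hf3
  have ho5 := fun hnf => orbits_le_25 (Ω := Ω) P5 h25 hnf
  rw [hnc] at ho5
  obtain ⟨f5, hf5d⟩ : ∃ f5, fx Ω y5 = f5 := ⟨_, rfl⟩
  rw [hf5d] at hB5 hf5
  generalize Nat.card (orbitRel.Quotient P5 Ω) = o5 at hB5 ho5
  rcases small_cases n hn27 hdiv with e | e | e
  · -- degree 27
    subst e
    have hf3' : fx Ω y3 = 0 := by
      generalize fx Ω y3 = f3 at hB3 hf3
      generalize Nat.card (orbitRel.Quotient P3 Ω) = o3 at hB3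
      omega
    have hf5' : f5 = 2 := by omega
    have hf5'' : Nat.card (fixedBy Ω y5) = 2 := hf5d.trans hf5'
    have hyfix : ∀ x : Ω, y • x ≠ x := by
      intro x hx
      have h0 : fx Ω y = 0 := by rw [← fx_isConj hy]; exact hf3'
      unfold fx at h0
      rw [Nat.card_coe_set_eq, Set.ncard_eq_zero] at h0
      have : x ∈ fixedBy Ω y := hx
      rw [h0] at this
      exact this
    haveI : Fact (Nat.Prime 5) := ⟨by norm_num⟩
    have hpg : IsPGroup 5 P5 := IsPGroup.of_card (n := 2) (by rw [h25]; norm_num)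
    have hmod := hpg.card_modEq_card_fixedPoints Ω
    rw [hnc, Nat.card_coe_set_eq] at hmod
    have hsub : fixedPoints P5 Ω ⊆ fixedBy Ω y5 := by
      intro x hx
      exact hx ⟨y5, hy5⟩
    have hle : (fixedPoints P5 Ω).ncard ≤ 2 := by
      have := Set.ncard_le_ncard hsub (Set.toFinite _)
      rw [← Nat.card_coe_set_eq (fixedBy Ω y5)] at this
      exact this.trans (le_of_eq hf5'')
    have h2c : (fixedPoints P5 Ω).ncard = 2 := by
      unfold Nat.ModEq at hmod
      omega
    obtain ⟨u, v, huv, hF⟩ := Set.ncard_eq_two.mp h2c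
    have hinv : ∀ x ∈ fixedPoints P5 Ω, y • x ∈ fixedPoints P5 Ω := by
      intro x hx g
      have hg := hx ⟨y⁻¹ * g.1 * y, hyN g.1 g.2⟩
      change (y⁻¹ * g.1 * y) • x = x at hg
      change g.1 • y • x = y • x
      calc g.1 • y • x = y • ((y⁻¹ * g.1 * y) • x) := by simp [mul_smul]
        _ = y • x := by rw [hg]
    have hu : u ∈ fixedPoints P5 Ω := by rw [hF]; simp
    have hv : v ∈ fixedPoints P5 Ω := by rw [hF]; simp
    have hyu : y • u = v := by
      have := hinv u hu
      rw [hF] at this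
      rcases this with h | h
      · exact absurd h (hyfix u)
      · exact h
    have hyv : y • v = u := by
      have := hinv v hv
      rw [hF] at this
      rcases this with h | h
      · exact h
      · exact absurd h (hyfix v)
    have h3 : y ^ 3 • u = v := by
      rw [pow_succ, pow_succ, pow_one, mul_smul, mul_smul, hyu, hyv, hyu]
    rw [hyo, one_smul] at h3
    exact huv h3
  · subst e
    have hnf := no_fixed_of_card h1 P5 h25 40 hn hN (by norm_num) (by norm_num)
    have := ho5 hnf
    omega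
  · subst e
    have hnf := no_fixed_of_card h1 P5 h25 65 hn hN (by norm_num) (by norm_num)
    have := ho5 hnf
    omega

end

end Cfsg.Agent.Lib.Helper60.TwoTrans
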